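import Groth.Agent.Models.TrivGeom
import Groth.Agent.Grpsch.PicGrp
import Mathlib.RingTheory.Polynomial.Nilpotent
import Mathlib.AlgebraicGeometry.Morphisms.ClosedImmersion

/-!
Let `i : Z ⟶ W` be a surjective closed immersion and `l` a natural number invertible on `W`. If every unit of
`Γ(Z, O)` is an `l`-th power, then an invertible module on `W` whose `l`-th power is trivial and which is trivial
on `Z` is trivial.
-/

set_option autoImplicit false
universe u
open CategoryTheory CategoryTheory.Limits AlgebraicGeometry Opposite TopologicalSpace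

namespace Groth.Agent.Models.H130.NilRoot

open Groth.Agent.Fdesc.LocGen Groth.Agent.Grpsch.PicGrp Groth.Agent.Models.TrivGeom
open Polynomial

section Algebra

variable {A B : Type*} [CommRing A] [CommRing B]

/-- Lifting `l`-th roots of units along a surjection with nil kernel. -/
theorem exists_root_lift (φ : A →+* B) (hφ : Function.Surjective φ)
    (hker : ∀ x, φ x = 0 → IsNilpotent x) (l : ℕ) (hl : IsUnit (l : A)) (a : A) (ha : IsUnit a)
    (t : B) (ht : t ^ l = φ a) : ∃ s : A, s ^ l = a ∧ φ s = t := by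
  rcases Nat.eq_zero_or_pos l with h0 | h0
  · subst h0
    rw [Nat.cast_zero, isUnit_zero_iff] at hl
    have hs : Subsingleton A := ⟨fun x y => by rw [← one_mul x, ← one_mul y, ← hl, zero_mul, zero_mul]⟩
    have hs' : Subsingleton B := hφ.subsingleton
    exact ⟨0, Subsingleton.elim _ _, Subsingleton.elim _ _⟩
  obtain ⟨s₀, rfl⟩ := hφ t
  have hnil : IsNilpotent (s₀ ^ l - a) := hker _ (by rw [map_sub, map_pow, ht, sub_self])
  have hs₀ : IsUnit s₀ := by
    rw [← isUnit_pow_iff h0.ne']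
    have h1 := hnil.isUnit_add_left_of_commute ha (Commute.all _ _)
    rwa [add_sub_cancel] at h1
  obtain ⟨s, ⟨hs1, hs2⟩, -⟩ := existsUnique_nilpotent_sub_and_aeval_eq_zero
    (P := (X ^ l - C a : A[X])) (x := s₀) (by simpa using hnil) (by
      have : aeval s₀ (derivative (X ^ l - C a : A[X])) = (l : A) * s₀ ^ (l - 1) := by
        simp [derivative_X_pow]
      rw [this]
      exact hl.mul (hs₀.pow _))
  have hs3 : s ^ l = a := by
    rw [← sub_eq_zero]
    simpa using hs2
  refine ⟨s, hs3, ?_⟩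
  -- uniqueness in `B`
  have hu : IsUnit (φ s₀) := hs₀.map φ
  obtain ⟨w, hw⟩ := existsUnique_nilpotent_sub_and_aeval_eq_zero
    (P := (X ^ l - C (φ a) : B[X])) (x := φ s₀) (by simp [ht]) (by
      have : aeval (φ s₀) (derivative (X ^ l - C (φ a) : B[X])) = (l : B) * φ s₀ ^ (l - 1) := by
        simp [derivative_X_pow]
      rw [this]
      refine IsUnit.mul ?_ (hu.pow _)
      have := hl.map φ
      rwa [map_natCast] at this)
  rw [hw.2 (φ s) ⟨by rw [← map_sub]; exact hs1.map φ, by simp [← map_pow, hs3]⟩,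
    hw.2 (φ s₀) ⟨by simp, by simp [ht]⟩]

/-- Uniqueness of `l`-th roots of units with given image modulo a nil ideal. -/
theorem root_unique (φ : A →+* B) (hker : ∀ x, φ x = 0 → IsNilpotent x) (l : ℕ)
    (hl : IsUnit (l : A)) (a : A) (ha : IsUnit a) (s t : A) (hs : s ^ l = a) (ht : t ^ l = a)
    (hst : φ s = φ t) : s = t := by
  rcases Nat.eq_zero_or_pos l with h0 | h0
  · subst h0
    rw [Nat.cast_zero, isUnit_zero_iff] at hl
    have hs : Subsingleton A := ⟨fun x y => by rw [← one_mul x, ← one_mul y, ← hl, zero_mul, zero_mul]⟩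
    exact Subsingleton.elim _ _
  have hs₀ : IsUnit s := by
    rw [← isUnit_pow_iff h0.ne', hs]
    exact ha
  have h1 := existsUnique_nilpotent_sub_and_aeval_eq_zero
    (P := (X ^ l - C a : A[X])) (x := s) (by simp [hs]) (by
      have : aeval s (derivative (X ^ l - C a : A[X])) = (l : A) * s ^ (l - 1) := by
        simp [derivative_X_pow]
      rw [this]
      exact hl.mul (hs₀.pow _))
  exact h1.unique ⟨by simp, by simp [hs]⟩ ⟨hker _ (by rw [map_sub, hst, sub_self]), by simp [ht]⟩

end Algebra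

variable {W Z : Scheme.{u}} (i : Z ⟶ W)

/-- For a surjective morphism, sections over a quasi-compact open which vanish on the source are nilpotent. -/
theorem isNilpotent_of_app_eq_zero [Surjective i] {U : W.Opens} (hU : IsAffineOpen U) (s : Γ(W, U))
    (hs : (i.app U).hom s = 0) : IsNilpotent s := by
  rw [Scheme.isNilpotent_iff_basicOpen_eq_bot_of_isCompact hU.isCompact, eq_bot_iff]
  intro x hx
  obtain ⟨z, rfl⟩ := i.surjective x
  have h1 : z ∈ i ⁻¹ᵁ (W.basicOpen s) := hx
  rw [Scheme.preimage_basicOpen] at h1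
  have h2 : (i.app U).hom s = 0 := hs
  rw [show ((ConcreteCategory.hom (i.app U)) s) = 0 from h2, Scheme.basicOpen_zero] at h1
  exact h1.elim

theorem ores_app {V U : W.Opens} (h : U ≤ V) (s : Γ(W, V)) :
    (i.app U).hom (ores h s) = ores (i.preimage_mono h) ((i.app V).hom s) :=
  congrArg (fun φ => φ.hom s) (i.naturality (homOfLE h).op)

/-- Uniqueness of `l`-th roots over arbitrary opens. -/
theorem root_unique_open [Surjective i] (l : ℕ) (hl : IsUnit (l : Γ(W, ⊤))) {U : W.Opens}
    (a : Γ(W, U)) (ha : IsUnit a) (s t : Γ(W, U)) (hs : s ^ l = a) (ht : t ^ l = a)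
    (hst : (i.app U).hom s = (i.app U).hom t) : s = t := by
  apply W.IsSheaf.section_ext
  intro x hx
  obtain ⟨_, ⟨V, hV, rfl⟩, hxV, hVU⟩ :=
    W.isBasis_affineOpens.exists_subset_of_mem_open hx U.isOpen
  have hVU' : V ≤ U := hVU
  refine ⟨V, hVU', hxV, ?_⟩
  refine root_unique (i.app V).hom (fun y hy => isNilpotent_of_app_eq_zero i hV y hy) l ?_
    (ores hVU' a) (ha.map _) (ores hVU' s) (ores hVU' t) ?_ ?_ ?_
  · have := hl.map (ores (le_top : V ≤ ⊤))
    rwa [map_natCast] at this
  · rw [← map_pow, hs]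
  · rw [← map_pow, ht]
  · rw [ores_app, ores_app, hst]

theorem eq_one_of_pull [IsClosedImmersion i] [Surjective i] (l : ℕ) (hl : IsUnit (l : Γ(W, ⊤)))
    (hroot : ∀ u : Γ(Z, ⊤), IsUnit u → ∃ v, v ^ l = u) (c : Pic W) (hc : c ^ l = 1)
    (h : pull i c = 1) : c = 1 := by
  obtain ⟨L, hL, rfl⟩ := exists_mk c
  rw [pull_mk, mk_eq_one_iff] at h
  rw [← mk_tensorPow, mk_eq_one_iff] at hc
  rw [mk_eq_one_iff]
  obtain ⟨α⟩ := hc
  obtain ⟨β⟩ := h
  choose V e hxV hV he using exists_affine_gen hL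
  have hcov : ⨆ x, V x = ⊤ := by
    rw [eq_top_iff]
    intro x _
    exact TopologicalSpace.Opens.mem_iSup.2 ⟨x, hxV x⟩
  have hlV : ∀ U : W.Opens, IsUnit (l : Γ(W, U)) := fun U => by
    have := hl.map (ores (le_top : U ≤ ⊤))
    rwa [map_natCast] at this
  -- transition functions
  have hg : ∀ x y, ∃ g : Γ(W, V x ⊓ V y), IsUnit g ∧ res L inf_le_right (e y) = g • res L inf_le_left (e x) :=
    fun x y => ((he x).res (inf_le_left : V x ⊓ V y ≤ V x)).exists_unit
      ((he y).res (inf_le_right : V x ⊓ V y ≤ V y))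
  choose g hgu hg using hg
  -- the functions `a`
  let a : ∀ x, Γ(W, V x) := fun x => ofFun.symm (α.hom.app (V x) (pow (e x) l))
  have ha' : ∀ x, a x • one (V x) = α.hom.app (V x) (pow (e x) l) := fun x => by
    rw [← ofFun_eq_smul]; exact ofFun.apply_symm_apply _
  have ha : ∀ x, IsUnit (a x) := fun x => by
    apply (isGen_one (V x)).isUnit_of_smul
    rw [ha' x]
    exact ((he x).pow l).app α.hom
  have hag : ∀ x y, ores inf_le_right (a y) = g x y ^ l * ores inf_le_left (a x) := by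
    intro x y
    apply (isGen_one (V x ⊓ V y)).ext
    have e1 : ores (inf_le_right : V x ⊓ V y ≤ V y) (a y) • one (V x ⊓ V y) =
        α.hom.app (V x ⊓ V y) (pow (res L inf_le_right (e y)) l) := by
      have := congrArg (res (Coh.structureModule W) (inf_le_right : V x ⊓ V y ≤ V y)) (ha' y)
      rw [res_smul, res_one, ← app_res, res_pow] at this
      exact this
    have e2 : ores (inf_le_left : V x ⊓ V y ≤ V x) (a x) • one (V x ⊓ V y) =
        α.hom.app (V x ⊓ V y) (pow (res L inf_le_left (e x)) l) := by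
      have := congrArg (res (Coh.structureModule W) (inf_le_left : V x ⊓ V y ≤ V x)) (ha' x)
      rw [res_smul, res_one, ← app_res, res_pow] at this
      exact this
    rw [e1, hg, smul_pow, mul_smul, e2, Scheme.Modules.Hom.app_smul]
  -- the functions `b` on `Z`
  let b : ∀ x, Γ(Z, i ⁻¹ᵁ (V x)) := fun x => ofFun.symm (β.hom.app (i ⁻¹ᵁ (V x)) (pullSec i (e x)))
  have hb : ∀ x, b x • one (i ⁻¹ᵁ (V x)) = β.hom.app (i ⁻¹ᵁ (V x)) (pullSec i (e x)) := fun x => by
    rw [← ofFun_eq_smul]; exact ofFun.apply_symm_apply _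
  have hbu : ∀ x, IsUnit (b x) := fun x => by
    apply (isGen_one _).isUnit_of_smul
    rw [hb x]
    exact ((he x).pullSec i).app β.hom
  have hbg : ∀ x y, ores (i.preimage_mono (inf_le_right : V x ⊓ V y ≤ V y)) (b y) =
      (i.app (V x ⊓ V y)).hom (g x y) * ores (i.preimage_mono (inf_le_left : V x ⊓ V y ≤ V x)) (b x) := by
    intro x y
    apply (isGen_one (i ⁻¹ᵁ (V x ⊓ V y))).ext
    have e1 := congrArg (res (Coh.structureModule _)
      (i.preimage_mono (inf_le_right : V x ⊓ V y ≤ V y))) (hb y)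
    have e2 := congrArg (res (Coh.structureModule _)
      (i.preimage_mono (inf_le_left : V x ⊓ V y ≤ V x))) (hb x)
    rw [res_smul, res_one, ← app_res,
      res_pullSec i (inf_le_right : V x ⊓ V y ≤ V y) (e y)] at e1
    rw [res_smul, res_one, ← app_res,
      res_pullSec i (inf_le_left : V x ⊓ V y ≤ V x) (e x)] at e2
    rw [mul_smul]
    refine e1.trans ?_
    rw [hg, pullSec_smul, Scheme.Modules.Hom.app_smul]
    exact congrArg (fun z => (i.app (V x ⊓ V y)).hom (g x y) • z) e2.symm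
  -- the functions `u = a / b ^ l` glue
  let q : ∀ x, Γ(Z, i ⁻¹ᵁ (V x)) := fun x => ↑((hbu x).unit⁻¹)
  have hq : ∀ x, b x * q x = 1 := fun x => (hbu x).mul_val_inv
  have hq' : ∀ x y, ores (i.preimage_mono (inf_le_right : V x ⊓ V y ≤ V y)) (q y) *
      (i.app (V x ⊓ V y)).hom (g x y) = ores (i.preimage_mono (inf_le_left : V x ⊓ V y ≤ V x)) (q x) := by
    intro x y
    have h1 := congrArg (ores (i.preimage_mono (inf_le_right : V x ⊓ V y ≤ V y))) (hq y)
    have h2 := congrArg (ores (i.preimage_mono (inf_le_left : V x ⊓ V y ≤ V x))) (hq x)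
    rw [map_mul, map_one] at h1 h2
    rw [hbg] at h1
    calc _ = ores (i.preimage_mono (inf_le_right : V x ⊓ V y ≤ V y)) (q y) *
      (i.app (V x ⊓ V y)).hom (g x y) * (ores (i.preimage_mono (inf_le_left : V x ⊓ V y ≤ V x)) (b x) *
        ores (i.preimage_mono (inf_le_left : V x ⊓ V y ≤ V x)) (q x)) := by rw [h2, mul_one]
      _ = ((i.app (V x ⊓ V y)).hom (g x y) * ores (i.preimage_mono (inf_le_left : V x ⊓ V y ≤ V x)) (b x) *
        ores (i.preimage_mono (inf_le_right : V x ⊓ V y ≤ V y)) (q y)) *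
        ores (i.preimage_mono (inf_le_left : V x ⊓ V y ≤ V x)) (q x) := by ring
      _ = _ := by rw [h1, one_mul]
  have hcovZ : (⊤ : Z.Opens) ≤ ⨆ x, i ⁻¹ᵁ (V x) := by
    intro z _
    exact TopologicalSpace.Opens.mem_iSup.2 ⟨i z, hxV (i z)⟩
  obtain ⟨w, hw⟩ := ores_glue (V := ⊤) (fun x => i ⁻¹ᵁ (V x)) (fun x => le_top) hcovZ
    (fun x => (i.app (V x)).hom (a x) * q x ^ l) (by
      intro x y
      change ores (i.preimage_mono (inf_le_left : V x ⊓ V y ≤ V x)) _ =
        ores (i.preimage_mono (inf_le_right : V x ⊓ V y ≤ V y)) _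
      rw [map_mul, map_mul, map_pow, map_pow, ← ores_app i (inf_le_left : V x ⊓ V y ≤ V x),
        ← ores_app i (inf_le_right : V x ⊓ V y ≤ V y), hag, ← hq' x y, map_mul, map_pow]
      ring)
  have hwu : IsUnit w := by
    apply (isGen_one (⊤ : Z.Opens)).isUnit_of_smul
    refine IsGen.of_cover (fun x => i ⁻¹ᵁ (V x)) (fun x => le_top) hcovZ (fun x => ?_)
    rw [res_smul, res_one]
    apply (isGen_one _).unit_smul
    have h1 : ores (le_top : i ⁻¹ᵁ (V x) ≤ ⊤) w = (i.app (V x)).hom (a x) * q x ^ l := hw x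
    rw [h1]
    exact ((ha x).map _).mul ((Units.isUnit _).pow _)
  obtain ⟨v, hv⟩ := hroot w hwu
  -- the roots on `Z`
  have ht1 : ∀ x, (ores (le_top : i ⁻¹ᵁ (V x) ≤ ⊤) v * b x) ^ l = (i.app (V x)).hom (a x) := by
    intro x
    have h1 : ores (le_top : i ⁻¹ᵁ (V x) ≤ ⊤) w = (i.app (V x)).hom (a x) * q x ^ l := hw x
    rw [mul_pow, ← map_pow, hv, h1, mul_assoc, ← mul_pow, mul_comm (q x), hq x, one_pow, mul_one]
  have hsurj : ∀ x, Function.Surjective (i.app (V x)).hom := fun x =>
    i.app_surjective (V x) (hV x)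
  have hs := fun x => exists_root_lift (i.app (V x)).hom (hsurj x)
    (fun y hy => isNilpotent_of_app_eq_zero i (hV x) y hy) l (hlV _) (a x) (ha x) _ (ht1 x)
  choose s hs1 hs2 using hs
  have hsu : ∀ x, IsUnit (s x) := by
    intro x
    rcases Nat.eq_zero_or_pos l with h0 | h0
    · have h1 := hlV (V x)
      subst h0
      rw [Nat.cast_zero, isUnit_zero_iff] at h1
      exact IsUnit.of_mul_eq_one 1 (by rw [← one_mul (s x * 1), ← h1, zero_mul])
    · rw [← isUnit_pow_iff h0.ne', hs1 x]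
      exact ha x
  have hs3 : ∀ x y, ores (inf_le_right : V x ⊓ V y ≤ V y) (s y) =
      g x y * ores (inf_le_left : V x ⊓ V y ≤ V x) (s x) := by
    intro x y
    refine root_unique_open i l hl (ores (inf_le_right : V x ⊓ V y ≤ V y) (a y)) ((ha y).map _) _ _ ?_ ?_ ?_
    · rw [← map_pow, hs1]
    · rw [mul_pow, ← map_pow, hs1, hag]
    · rw [map_mul, ores_app, ores_app, hs2, hs2, map_mul, map_mul, hbg, ores_ores, ores_ores]
      ring
  let r : ∀ x, Γ(W, V x) := fun x => ↑((hsu x).unit⁻¹)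
  have hr : ∀ x, s x * r x = 1 := fun x => (hsu x).mul_val_inv
  obtain ⟨σ, hσ⟩ := res_glue L (V := ⊤) V (fun x => le_top) (by rw [hcov]) (fun x => r x • e x) (by
    intro x y
    rw [res_smul, res_smul, hg, smul_smul]
    congr 1
    have h1 := congrArg (ores (inf_le_right : V x ⊓ V y ≤ V y)) (hr y)
    have h2 := congrArg (ores (inf_le_left : V x ⊓ V y ≤ V x)) (hr x)
    rw [map_mul, map_one] at h1 h2
    rw [hs3] at h1
    calc ores (inf_le_left : V x ⊓ V y ≤ V x) (r x) =
        (g x y * ores (inf_le_left : V x ⊓ V y ≤ V x) (s x) * ores (inf_le_right : V x ⊓ V y ≤ V y) (r y)) *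
          ores (inf_le_left : V x ⊓ V y ≤ V x) (r x) := by rw [h1, one_mul]
      _ = ores (inf_le_right : V x ⊓ V y ≤ V y) (r y) * g x y *
        (ores (inf_le_left : V x ⊓ V y ≤ V x) (s x) * ores (inf_le_left : V x ⊓ V y ≤ V x) (r x)) := by ring
      _ = _ := by rw [h2, mul_one])
  have hgen : IsGen σ := by
    refine IsGen.of_cover V (fun x => le_top) (by rw [hcov]) (fun x => ?_)
    rw [hσ x]
    exact (he x).unit_smul (Units.isUnit _)
  have hI : IsIso (homOf σ) := by
    rw [isIso_iff_isGen, sec_homOf, res_refl]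
    exact hgen
  exact ⟨(asIso (homOf σ)).symm⟩

end Groth.Agent.Models.H130.NilRoot
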