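import Groth.Agent.Models.H130.NilRoot
import Groth.Agent.S0002
import Groth.Agent.S0232

/-!
# Torsion of the Picard group under extension of the base field and reduction

`eq_one_of_pull`: for `Y` proper over a field `k` with `H⁰ = k`, `K ⊇ k` algebraically closed, `Z ⟶ Y_K` a
surjective closed immersion and `l` invertible in `k`, the map `Pic(Y)[l] ⟶ Pic(Z)[l]` is injective.
-/

set_option autoImplicit false
universe u
open CategoryTheory CategoryTheory.Limits AlgebraicGeometry Opposite TopologicalSpace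

namespace Groth.Agent.Models.H130.PicBc

open Groth.Agent.Fdesc.LocGen Groth.Agent.Grpsch.PicGrp Groth.Agent.Models.TrivGeom
open Polynomial

/-- A unit which is integral over an algebraically closed field is an `l`-th power. -/
theorem exists_root_of_isIntegral {K A : Type*} [Field K] [IsAlgClosed K] [CommRing A] (φ : K →+* A)
    (l : ℕ) (hl : (l : K) ≠ 0) (u : A) (hu : IsUnit u) (hint : φ.IsIntegralElem u) :
    ∃ v, v ^ l = u := by
  obtain ⟨P, hP1, hP2⟩ := hint
  have hP : P ≠ 0 := hP1.ne_zero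
  obtain ⟨Q, hQ, hQ0⟩ := exists_eq_pow_rootMultiplicity_mul_and_not_dvd P hP 0
  rw [map_zero, sub_zero] at hQ hQ0
  have hQ' : Q.eval 0 ≠ 0 := by
    rw [← coeff_zero_eq_eval_zero]
    intro h
    exact hQ0 (X_dvd_iff.2 h)
  have hQne : Q ≠ 0 := by rintro rfl; simp at hQ'
  have h1 : eval₂ φ u Q = 0 := by
    rw [hQ, eval₂_mul, eval₂_pow, eval₂_X] at hP2
    exact ((hu.pow _).mul_right_eq_zero).1 hP2
  have hl0 : l ≠ 0 := by rintro rfl; simp at hl
  obtain ⟨W, S, hW⟩ := Groth.Agent.Models.RootExt.exists_dvd_pow_sub_X l hl Q hQne hQ'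
    (IsAlgClosed.splits Q) (fun θ _ => IsAlgClosed.exists_pow_nat_eq θ (Nat.pos_of_ne_zero hl0))
  refine ⟨eval₂ φ u W, ?_⟩
  have h2 := congrArg (eval₂ φ u) hW
  rw [eval₂_sub, eval₂_pow, eval₂_X, eval₂_mul, h1, zero_mul, sub_eq_zero] at h2
  exact h2

/-- Units on a scheme universally closed over an algebraically closed field are `l`-th powers. -/
theorem exists_root_of_universallyClosed {K : Type u} [Field K] [IsAlgClosed K] {Z : Scheme.{u}}
    (q : Z ⟶ Spec (CommRingCat.of K)) [UniversallyClosed q] (l : ℕ) (hl : (l : K) ≠ 0)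
    (w : Γ(Z, ⊤)) (hw : IsUnit w) : ∃ v, v ^ l = w := by
  obtain ⟨P, hP1, hP2⟩ := isIntegral_appTop_of_universallyClosed q w
  refine exists_root_of_isIntegral (q.appTop.hom.comp (Scheme.ΓSpecIso (CommRingCat.of K)).inv.hom)
    l hl w hw ⟨P.map (Scheme.ΓSpecIso (CommRingCat.of K)).hom.hom, hP1.map _, ?_⟩
  rw [eval₂_map]
  have h3 : (q.appTop.hom.comp (Scheme.ΓSpecIso (CommRingCat.of K)).inv.hom).comp
      (Scheme.ΓSpecIso (CommRingCat.of K)).hom.hom = q.appTop.hom := by
    rw [RingHom.comp_assoc, ← CommRingCat.hom_comp, Iso.hom_inv_id]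
    rfl
  rw [h3]
  exact hP2

theorem isUnit_natCast {K : Type u} [Field K] {Z : Scheme.{u}}
    (q : Z ⟶ Spec (CommRingCat.of K)) (l : ℕ) (hl : (l : K) ≠ 0) : IsUnit (l : Γ(Z, ⊤)) := by
  have h1 : IsUnit (l : K) := isUnit_iff_ne_zero.2 hl
  have h2 := h1.map (q.appTop.hom.comp (Scheme.ΓSpecIso (CommRingCat.of K)).inv.hom)
  rwa [map_natCast] at h2

/-- Nilpotent thickenings: for `W` over an algebraically closed field and `Z ⟶ W` a surjective closed immersion
with `Z` universally closed, `Pic(W)[l] ⟶ Pic(Z)[l]` is injective. -/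
theorem eq_one_of_pull_nil {K : Type u} [Field K] [IsAlgClosed K] {W Z : Scheme.{u}}
    (q : W ⟶ Spec (CommRingCat.of K)) (i : Z ⟶ W) [UniversallyClosed (i ≫ q)] [IsClosedImmersion i]
    [Surjective i] (l : ℕ) (hl : (l : K) ≠ 0) (c : Pic W) (hc : c ^ l = 1) (h : pull i c = 1) : c = 1 :=
  NilRoot.eq_one_of_pull i l (isUnit_natCast q l hl)
    (fun w hw => exists_root_of_universallyClosed (i ≫ q) l hl w hw) c hc h

/-- `Pic(Y) ⟶ Pic(Y_K)` is injective for `Y` proper over a field. -/
theorem eq_one_of_pull_field (k : Type u) [Field k] (Y : Scheme.{u})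
    (f : Y ⟶ Spec (CommRingCat.of k)) [IsProper f]
    (K : Type u) [Field K] [Algebra k K] (c : Pic Y)
    (h : pull (pullback.fst f (Spec.map (CommRingCat.ofHom (algebraMap k K)))) c = 1) : c = 1 := by
  letI : Y.Over (Spec (CommRingCat.of k)) := ⟨f⟩
  haveI : IsProper (Y ↘ Spec (CommRingCat.of k)) := ‹IsProper f›
  haveI : CompactSpace Y := (quasiCompact_iff_compactSpace f).mp inferInstance
  haveI : QuasiSeparatedSpace Y := (quasiSeparated_iff_quasiSeparatedSpace f).mp inferInstance
  obtain ⟨L, hL, rfl⟩ := exists_mk c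
  rw [pull_mk, mk_eq_one_iff] at h
  rw [mk_eq_one_iff]
  have h1 := Groth.Agent.S0232.result k Y
    (Groth.Agent.S0002.result k Y _ (isCoh_of_isInvertible isInvertible_structureModule) 0) K _
    (pullback.fst f (Spec.map (CommRingCat.ofHom (algebraMap k K)))) (pullback.snd f _)
    (IsPullback.of_hasPullback f _) L hL (Quot.sound h)
  have h2 := Quot.eqvGen_exact h1
  have h3 : ∀ A B : Y.Modules, Relation.EqvGen (fun L L' : Y.Modules => Nonempty (L ≅ L')) A B →
      Nonempty (A ≅ B) := by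
    intro A B hAB
    induction hAB with
    | rel _ _ h => exact h
    | refl _ => exact ⟨Iso.refl _⟩
    | symm _ _ _ ih => exact ih.map Iso.symm
    | trans _ _ _ _ _ ih1 ih2 => exact ⟨ih1.some ≪≫ ih2.some⟩
  exact h3 _ _ h2

/-- `Pic(Y)[l] ⟶ Pic(Z)[l]` is injective for `Z` a closed subscheme of `Y_K` with the same underlying space,
`Y` proper over `k`, `K` algebraically closed and `l` invertible in `k`. -/
theorem eq_one_of_pull (k : Type u) [Field k] (Y : Scheme.{u}) (f : Y ⟶ Spec (CommRingCat.of k))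
    [IsProper f] (K : Type u) [Field K] [IsAlgClosed K] [Algebra k K] (Z : Scheme.{u})
    (r : Z ⟶ pullback f (Spec.map (CommRingCat.ofHom (algebraMap k K)))) [IsClosedImmersion r]
    [Surjective r] (l : ℕ) (hl : (l : k) ≠ 0) (c : Pic Y) (hc : c ^ l = 1)
    (h : pull (r ≫ pullback.fst f _) c = 1) : c = 1 := by
  apply eq_one_of_pull_field k Y f K
  rw [pull_comp] at h
  refine eq_one_of_pull_nil (pullback.snd f (Spec.map (CommRingCat.ofHom (algebraMap k K)))) r l ?_ _ ?_ h
  · intro h0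
    apply hl
    apply (algebraMap k K).injective
    rw [map_natCast, map_zero, h0]
  · rw [← map_pow, hc, map_one]

/-- The version on torsion subgroups. -/
theorem pull_injOn (k : Type u) [Field k] (Y : Scheme.{u}) (f : Y ⟶ Spec (CommRingCat.of k))
    [IsProper f] (K : Type u) [Field K] [IsAlgClosed K] [Algebra k K] (Z : Scheme.{u})
    (r : Z ⟶ pullback f (Spec.map (CommRingCat.ofHom (algebraMap k K)))) [IsClosedImmersion r]
    [Surjective r] (l : ℕ) (hl : (l : k) ≠ 0) :
    Function.Injective (fun c : {c : Pic Y // c ^ l = 1} =>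
      (⟨pull (r ≫ pullback.fst f _) c.1, by rw [← map_pow, c.2, map_one]⟩ : {c : Pic Z // c ^ l = 1})) := by
  rintro ⟨a, ha⟩ ⟨b, hb⟩ hab
  have h1 : pull (r ≫ pullback.fst f _) a = pull (r ≫ pullback.fst f _) b := congrArg Subtype.val hab
  have h2 : a * b⁻¹ = 1 := by
    apply eq_one_of_pull k Y f K Z r l hl
    · rw [mul_pow, inv_pow, ha, hb, inv_one, mul_one]
    · rw [map_mul, map_inv, h1, mul_inv_cancel]
  exact Subtype.ext (mul_inv_eq_one.1 h2)

end Groth.Agent.Models.H130.PicBc
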